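import Mathlib
import Cfsg.Agent.Lib.Helper30.DSims.Defs

/-!
# Sims' lemma for a dihedral quotient: shared basic facts for the packages P2, P3
-/

set_option autoImplicit false

namespace Cfsg.Agent.Lib.Helper21.DSims

open Pointwise
open Cfsg.Agent.Lib.Helper30.DSims

universe u

variable {G : Type u} [Group G]

theorem mem_conjSmul {g a : G} {K : Subgroup G} :
    a ∈ MulAut.conj g • K ↔ g⁻¹ * a * g ∈ K := by
  rw [Subgroup.mem_pointwise_smul_iff_inv_smul_mem, MulAut.smul_def, MulAut.conj_inv_apply]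

theorem card_conjSmul (g : G) (K : Subgroup G) :
    Nat.card ↥(MulAut.conj g • K) = Nat.card ↥K :=
  (Nat.card_congr (Subgroup.equivSMul (MulAut.conj g) K).toEquiv).symm

theorem card_mul_relIndex {A B : Subgroup G} (h : A ≤ B) :
    Nat.card ↥A * A.relIndex B = Nat.card ↥B := by
  have := Subgroup.relIndex_mul_relIndex ⊥ A B bot_le h
  rwa [Subgroup.relIndex_bot_left, Subgroup.relIndex_bot_left] at this

theorem mul_mem_iff_of_relIndex_two {K P : Subgroup G} (h2 : K.relIndex P = 2) {a b : G}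
    (ha : a ∈ P) (hb : b ∈ P) : a * b ∈ K ↔ (a ∈ K ↔ b ∈ K) := by
  have hidx2 : (K.subgroupOf P).index = 2 := h2
  have h := Subgroup.mul_mem_iff_of_index_two hidx2 (a := ⟨a, ha⟩) (b := ⟨b, hb⟩)
  simpa [Subgroup.mem_subgroupOf] using h

theorem le_normalizer_of_conj_mem {A N : Subgroup G}
    (h : ∀ g ∈ A, ∀ a ∈ N, g * a * g⁻¹ ∈ N) : A ≤ Subgroup.normalizer (N : Set G) := by
  intro g hg
  rw [Subgroup.mem_normalizer_iff]
  intro a
  refine ⟨h g hg a, fun ha => ?_⟩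
  have h1 := h g⁻¹ (A.inv_mem hg) _ ha
  have e : g⁻¹ * (g * a * g⁻¹) * g⁻¹⁻¹ = a := by group
  rwa [e] at h1

theorem comm_of_exp_two {K : Subgroup G} (h : ∀ k ∈ K, k * k = 1) {a b : G} (ha : a ∈ K)
    (hb : b ∈ K) : a * b = b * a := by
  have h1 := h (a * b) (K.mul_mem ha hb)
  have h2 := h a ha
  have h3 := h b hb
  calc a * b = a * 1 * b := by rw [mul_one]
    _ = a * (a * b * (a * b)) * b := by rw [h1]
    _ = (a * a) * (b * a) * (b * b) := by group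
    _ = b * a := by rw [h2, h3, one_mul, mul_one]

theorem comm_of_sq_comm {x c : G} {n : ℕ} (hn : Odd n) (hxn : x ^ n * c = c * x ^ n)
    (h2 : x ^ 2 * c = c * x ^ 2) : x * c = c * x := by
  obtain ⟨j, rfl⟩ := hn
  have c1 : Commute (x ^ 2) c := h2
  have c2 : Commute (x ^ (2 * j + 1)) c := hxn
  have c3 : Commute ((x ^ 2) ^ (j + 1)) c := c1.pow_left _
  have c4 : Commute ((x ^ 2) ^ (j + 1) * (x ^ (2 * j + 1))⁻¹) c := c3.mul_left c2.inv_left
  have e : (x ^ 2) ^ (j + 1) * (x ^ (2 * j + 1))⁻¹ = x := by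
    rw [← pow_mul, show 2 * (j + 1) = (2 * j + 1) + 1 by ring, pow_succ', mul_inv_cancel_right]
  rw [e] at c4
  exact c4.eq

theorem sq_of_central {q q' : G} (hqq : q * q = 1) (hc : q * (q * q') = (q * q') * q)
    (hsq : (q * q') * (q * q') = 1) : q' * q' = 1 := by
  have e : q' = q * (q * q') := by rw [← mul_assoc, hqq, one_mul]
  calc q' * q' = q * (q * q') * (q * (q * q')) := by rw [← e]
    _ = q * ((q * q') * q) * (q * q') := by group
    _ = q * (q * (q * q')) * (q * q') := by rw [← hc]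
    _ = (q * q) * ((q * q') * (q * q')) := by group
    _ = 1 := by rw [hqq, hsq, one_mul]

theorem pigeon5 (b0 b1 b2 b3 b4 : Prop) (h1 : ¬(b1 ∧ b0)) (h2 : ¬(b2 ∧ b1)) (h3 : ¬(b3 ∧ b2))
    (h4 : ¬(b4 ∧ b3)) :
    ((b1 ↔ b2) ∧ (b0 ↔ b1)) ∨ ((b1 ↔ b3) ∧ (b0 ↔ b2)) ∨ ((b1 ↔ b4) ∧ (b0 ↔ b3)) ∨
    ((b2 ↔ b3) ∧ (b1 ↔ b2)) ∨ ((b2 ↔ b4) ∧ (b1 ↔ b3)) ∨ ((b3 ↔ b4) ∧ (b2 ↔ b3)) := by
  by_cases c0 : b0 <;> by_cases c1 : b1 <;> by_cases c2 : b2 <;> by_cases c3 : b3 <;>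
    by_cases c4 : b4 <;> simp_all

/-- The conjugate `R = y Q y⁻¹` of `Q` inside `P`. -/
theorem ctx_R [Finite G] {H P Q M : Subgroup G} {x y : G} {n : ℕ} (hC : Ctx H P Q M x y n) :
    ∃ R : Subgroup G, R = MulAut.conj y • Q ∧ (∀ r, r ∈ R ↔ y⁻¹ * r * y ∈ Q) ∧ R ≤ P ∧
      R.relIndex P = 2 ∧ Nat.card ↥R = Nat.card ↥Q ∧ (∃ τ ∈ R, τ ∉ Q) ∧
      (∀ r, r ∈ P ↔ y⁻¹ * r * y ∈ P) := by
  have hmemP : ∀ r, r ∈ P ↔ y⁻¹ * r * y ∈ P := by
    intro r
    have h : r ∈ MulAut.conj y • P ↔ y⁻¹ * r * y ∈ P := mem_conjSmul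
    rwa [hC.hy] at h
  have hmemR : ∀ r, r ∈ MulAut.conj y • Q ↔ y⁻¹ * r * y ∈ Q := fun r => mem_conjSmul
  have hRP : MulAut.conj y • Q ≤ P := fun r hr => (hmemP r).mpr (hC.hQP ((hmemR r).mp hr))
  have hcard : Nat.card ↥(MulAut.conj y • Q) = Nat.card ↥Q := card_conjSmul y Q
  have hidx : (MulAut.conj y • Q).relIndex P = 2 := by
    have h1 := card_mul_relIndex hRP
    have h2 := card_mul_relIndex hC.hQP
    rw [hC.hPQ] at h2
    rw [hcard, ← h2] at h1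
    exact Nat.eq_of_mul_eq_mul_left Nat.card_pos h1
  have hne : MulAut.conj y • Q ≠ Q := by
    intro hEq
    apply hC.hQ1
    apply hC.hNC Q hC.hQP (le_normalizer_of_conj_mem hC.dih.hQn)
    rw [hEq]
    exact le_normalizer_of_conj_mem hC.dih.hQn
  have hτ : ∃ τ ∈ MulAut.conj y • Q, τ ∉ Q := by
    by_contra hcon
    push Not at hcon
    exact hne (Subgroup.eq_of_le_of_card_ge hcon (le_of_eq hcard.symm))
  exact ⟨_, rfl, hmemR, hRP, hidx, hcard, hτ, hmemP⟩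

end Cfsg.Agent.Lib.Helper21.DSims
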