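import Mathlib
import Cfsg.Agent.Lib.Helper30.DSims.Defs
import Cfsg.Agent.Lib.Helper21.DSims.Basic

/-!
# Sims' lemma for a dihedral quotient, package (P3): `x ^ 3` centralizes `Q`
-/

set_option autoImplicit false

namespace Cfsg.Agent.Lib.Helper21.DSims

open Pointwise
open Cfsg.Agent.Lib.Helper30.DSims

universe u

/-- **(P3)** In the Sims context with `Q` of exponent two, `x ^ 3` centralizes `Q`. -/
theorem lemCube : LemCube.{u} := by
  intro G _ _ H P Q M x y n hC hexp q hq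
  obtain ⟨R, -, hmemR, hRP, hRidx, -, ⟨τ, hτR, hτQ⟩, -⟩ := ctx_R hC
  obtain ⟨hD, hPH, hQP, hPQ, hPM, -, -, -⟩ := hC
  obtain ⟨hQM, hMH, hQn, -, -, hn, hxM, -, hxn, -, hinv⟩ := hD
  have hxH : x ∈ H := hMH hxM
  have hQab : ∀ a ∈ Q, ∀ b ∈ Q, a * b = b * a := fun a ha b hb => comm_of_exp_two hexp ha hb
  have hRexp : ∀ r ∈ R, r * r = 1 := by
    intro r hr
    have h1 := hexp _ ((hmemR r).mp hr)
    have e : y⁻¹ * r * y * (y⁻¹ * r * y) = y⁻¹ * (r * r) * y := by group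
    rw [e] at h1
    have e2 : r * r = y * (y⁻¹ * (r * r) * y) * y⁻¹ := by group
    rw [e2, h1]
    group
  have hRab : ∀ a ∈ R, ∀ b ∈ R, a * b = b * a := fun a ha b hb => comm_of_exp_two hRexp ha hb
  have hR2 : ∀ a ∈ P, ∀ b ∈ P, (a * b ∈ R ↔ (a ∈ R ↔ b ∈ R)) :=
    fun a ha b hb => mul_mem_iff_of_relIndex_two hRidx ha hb
  have hτP : τ ∈ P := hRP hτR
  have hτM : τ ∉ M := fun h => hτQ (by rw [← hPM]; exact Subgroup.mem_inf.mpr ⟨hτP, h⟩)
  have hq₁ : τ * x * τ⁻¹ * x ∈ Q := hinv τ (hPH hτP) hτM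
  -- Lemma A: `x` centralizes `Q ∩ R ∩ x R x⁻¹`
  have hA : ∀ c ∈ Q, c ∈ R → x⁻¹ * c * x ∈ R → x * c = c * x := by
    intro c hcQ hcR hcR'
    have c1 : Commute τ c := hRab τ hτR c hcR
    have h2 : τ * (x⁻¹ * c * x) = (x⁻¹ * c * x) * τ := hRab τ hτR _ hcR'
    have c3 : Commute (x * τ * x⁻¹) c := by
      show x * τ * x⁻¹ * c = c * (x * τ * x⁻¹)
      calc x * τ * x⁻¹ * c = x * (τ * (x⁻¹ * c * x)) * x⁻¹ := by group
        _ = x * ((x⁻¹ * c * x) * τ) * x⁻¹ := by rw [h2]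
        _ = c * (x * τ * x⁻¹) := by group
    have c4 : Commute (x * τ * x⁻¹ * τ⁻¹) c := c3.mul_left c1.inv_left
    have c5 : Commute (τ * x * τ⁻¹ * x) c := hQab _ hq₁ c hcQ
    have e : x ^ 2 = (x * τ * x⁻¹ * τ⁻¹) * (τ * x * τ⁻¹ * x) := by
      rw [pow_two]
      group
    have h4 : x ^ 2 * c = c * x ^ 2 := by
      rw [e]
      exact (c4.mul_left c5).eq
    exact comm_of_sq_comm hn (hQab _ hxn c hcQ) h4
  -- the conjugates of `q`
  have hqi : ∀ i : ℕ, x ^ i * q * (x ^ i)⁻¹ ∈ Q := fun i => hQn _ (H.pow_mem hxH i) q hq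
  have hstep : ∀ i : ℕ,
      x⁻¹ * (x ^ (i + 1) * q * (x ^ (i + 1))⁻¹) * x = x ^ i * q * (x ^ i)⁻¹ := by
    intro i
    rw [pow_succ']
    generalize x ^ i = w
    group
  have hxq_of : (∃ i : ℕ, x ^ (i + 1) * q * (x ^ (i + 1))⁻¹ ∈ R ∧ x ^ i * q * (x ^ i)⁻¹ ∈ R) →
      x * q = q * x := by
    rintro ⟨i, h1, h2⟩
    have c1 : Commute x (x ^ (i + 1) * q * (x ^ (i + 1))⁻¹) :=
      hA _ (hqi (i + 1)) h1 (by rw [hstep i]; exact h2)
    have c2 : Commute x (x ^ (i + 1)) := Commute.pow_right (Commute.refl x) _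
    have c3 : Commute x ((x ^ (i + 1))⁻¹ * (x ^ (i + 1) * q * (x ^ (i + 1))⁻¹) * x ^ (i + 1)) :=
      (c2.inv_right.mul_right c1).mul_right c2
    have e : (x ^ (i + 1))⁻¹ * (x ^ (i + 1) * q * (x ^ (i + 1))⁻¹) * x ^ (i + 1) = q := by
      generalize x ^ (i + 1) = w
      group
    rw [e] at c3
    exact c3.eq
  have key : ∀ i k : ℕ,
      (x ^ (i + 1) * q * (x ^ (i + 1))⁻¹ ∈ R ↔ x ^ (i + k + 1) * q * (x ^ (i + k + 1))⁻¹ ∈ R) →
      (x ^ i * q * (x ^ i)⁻¹ ∈ R ↔ x ^ (i + k) * q * (x ^ (i + k))⁻¹ ∈ R) →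
      x ^ k * q = q * x ^ k := by
    intro i k h1 h2
    obtain ⟨c, hc⟩ : ∃ c : G, c = (x ^ (i + 1) * q * (x ^ (i + 1))⁻¹) *
        (x ^ (i + k + 1) * q * (x ^ (i + k + 1))⁻¹) := ⟨_, rfl⟩
    have hcQ : c ∈ Q := by
      rw [hc]
      exact Q.mul_mem (hqi _) (hqi _)
    have hcR : c ∈ R := by
      rw [hc]
      exact (hR2 _ (hQP (hqi _)) _ (hQP (hqi _))).mpr h1
    have hcR' : x⁻¹ * c * x ∈ R := by
      have e : ∀ A B : G, x⁻¹ * (A * B) * x = (x⁻¹ * A * x) * (x⁻¹ * B * x) := by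
        intro A B
        group
      rw [hc, e, hstep i, hstep (i + k)]
      exact (hR2 _ (hQP (hqi _)) _ (hQP (hqi _))).mpr h2
    have hxc : x * c = c * x := hA c hcQ hcR hcR'
    have hconj : x ^ k * q * (x ^ k)⁻¹ = q * c := by
      have e1 : x ^ (i + k + 1) = x ^ (i + 1) * x ^ k := by
        rw [← pow_add]
        congr 1
        omega
      have e2 : (x ^ (i + 1) * q * (x ^ (i + 1))⁻¹) * c =
          x ^ (i + k + 1) * q * (x ^ (i + k + 1))⁻¹ := by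
        rw [hc, ← mul_assoc (x ^ (i + 1) * q * (x ^ (i + 1))⁻¹), hexp _ (hqi (i + 1)), one_mul]
      have cx : Commute (x ^ (i + 1)) c := Commute.pow_left hxc _
      have e3 : (x ^ (i + 1))⁻¹ * c * x ^ (i + 1) = c := by
        rw [cx.inv_left.eq, inv_mul_cancel_right]
      calc x ^ k * q * (x ^ k)⁻¹
          = (x ^ (i + 1))⁻¹ * (x ^ (i + k + 1) * q * (x ^ (i + k + 1))⁻¹) * x ^ (i + 1) := by
            rw [e1]
            generalize x ^ (i + 1) = w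
            generalize x ^ k = v
            group
        _ = (x ^ (i + 1))⁻¹ * ((x ^ (i + 1) * q * (x ^ (i + 1))⁻¹) * c) * x ^ (i + 1) := by
            rw [e2]
        _ = q * ((x ^ (i + 1))⁻¹ * c * x ^ (i + 1)) := by
            generalize x ^ (i + 1) = w
            group
        _ = q * c := by rw [e3]
    have hpow : ∀ m : ℕ, (x ^ k) ^ m * q * ((x ^ k) ^ m)⁻¹ = q * c ^ m := by
      intro m
      induction m with
      | zero => simp
      | succ m ih =>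
        have cxk : Commute (x ^ k) (c ^ m) := (Commute.pow_left hxc k).pow_right m
        calc (x ^ k) ^ (m + 1) * q * ((x ^ k) ^ (m + 1))⁻¹
            = x ^ k * ((x ^ k) ^ m * q * ((x ^ k) ^ m)⁻¹) * (x ^ k)⁻¹ := by
              rw [pow_succ']
              generalize (x ^ k) ^ m = u
              generalize x ^ k = v
              group
          _ = x ^ k * (q * c ^ m) * (x ^ k)⁻¹ := by rw [ih]
          _ = (x ^ k * q * (x ^ k)⁻¹) * (x ^ k * c ^ m * (x ^ k)⁻¹) := by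
              generalize x ^ k = v
              generalize c ^ m = u
              group
          _ = q * c * c ^ m := by rw [hconj, cxk.eq, mul_inv_cancel_right]
          _ = q * c ^ (m + 1) := by rw [pow_succ', mul_assoc]
    have hxnk : (x ^ k) ^ n ∈ Q := by
      rw [← pow_mul, mul_comm, pow_mul]
      exact Q.pow_mem hxn k
    have h5 := hpow n
    have h6 : (x ^ k) ^ n * q * ((x ^ k) ^ n)⁻¹ = q := by
      rw [hQab _ hxnk q hq, mul_inv_cancel_right]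
    rw [h6] at h5
    have hcn : c ^ n = 1 := by
      have h7 : q * c ^ n = q * 1 := by
        rw [mul_one]
        exact h5.symm
      exact mul_left_cancel h7
    have hc2 : c * c = 1 := hexp c hcQ
    have hc1 : c = 1 := by
      obtain ⟨j, hj⟩ := hn
      have h8 : c ^ n = c := by
        rw [hj, pow_succ, pow_mul, pow_two, hc2, one_pow, one_mul]
      rw [h8] at hcn
      exact hcn
    rw [hc1, mul_one] at hconj
    exact mul_inv_eq_iff_eq_mul.mp hconj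
  have fin1 : x * q = q * x → x ^ 3 * q = q * x ^ 3 := fun h => (Commute.pow_left h 3).eq
  have fin2 : x ^ 2 * q = q * x ^ 2 → x ^ 3 * q = q * x ^ 3 :=
    fun h => fin1 (comm_of_sq_comm hn (hQab _ hxn q hq) h)
  by_cases hbad : ∃ i : ℕ, x ^ (i + 1) * q * (x ^ (i + 1))⁻¹ ∈ R ∧ x ^ i * q * (x ^ i)⁻¹ ∈ R
  · exact fin1 (hxq_of hbad)
  · push Not at hbad
    have p := pigeon5 (x ^ 0 * q * (x ^ 0)⁻¹ ∈ R) (x ^ 1 * q * (x ^ 1)⁻¹ ∈ R)
      (x ^ 2 * q * (x ^ 2)⁻¹ ∈ R) (x ^ 3 * q * (x ^ 3)⁻¹ ∈ R) (x ^ 4 * q * (x ^ 4)⁻¹ ∈ R)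
      (fun h => hbad 0 h.1 h.2) (fun h => hbad 1 h.1 h.2) (fun h => hbad 2 h.1 h.2)
      (fun h => hbad 3 h.1 h.2)
    rcases p with ⟨h1, h2⟩ | ⟨h1, h2⟩ | ⟨h1, h2⟩ | ⟨h1, h2⟩ | ⟨h1, h2⟩ | ⟨h1, h2⟩
    · have h := key 0 1 h1 h2
      rw [pow_one] at h
      exact fin1 h
    · exact fin2 (key 0 2 h1 h2)
    · exact key 0 3 h1 h2
    · have h := key 1 1 h1 h2
      rw [pow_one] at h
      exact fin1 h
    · exact fin2 (key 1 2 h1 h2)
    · have h := key 2 1 h1 h2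
      rw [pow_one] at h
      exact fin1 h

end Cfsg.Agent.Lib.Helper21.DSims
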