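import Mathlib
import Cfsg.Agent.Lib.Helper30.DSims.Defs
import Cfsg.Agent.Lib.Helper21.DSims.Basic

/-!
# Sims' lemma for a dihedral quotient, package (P2): `Q` has exponent two
-/

set_option autoImplicit false

namespace Cfsg.Agent.Lib.Helper21.DSims

open Pointwise
open Cfsg.Agent.Lib.Helper30.DSims

universe u

/-- **(P2)** In the Sims context with `|P| = 2 ^ t`, `t ≤ 4`, the group `Q` has exponent two. -/
theorem lemExpTwo : LemExpTwo.{u} := by
  intro G _ _ H P Q M x y n hC hcardP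
  obtain ⟨t, ht, hcard⟩ := hcardP
  by_contra hcon
  push Not at hcon
  obtain ⟨q₁, hq₁Q, hq₁⟩ := hcon
  obtain ⟨R, -, hmemR, hRP, hRidx, hRcard, ⟨τ, hτR, hτQ⟩, hmemP⟩ := ctx_R hC
  obtain ⟨hD, hPH, hQP, hPQ, -, -, hNC, -⟩ := hC
  obtain ⟨-, -, hQn, -, -, -, -, -, -, -, -⟩ := hD
  have hR2 : ∀ a ∈ P, ∀ b ∈ P, (a * b ∈ R ↔ (a ∈ R ↔ b ∈ R)) :=
    fun a ha b hb => mul_mem_iff_of_relIndex_two hRidx ha hb
  have hQ2 : ∀ a ∈ P, ∀ b ∈ P, (a * b ∈ Q ↔ (a ∈ Q ↔ b ∈ Q)) :=
    fun a ha b hb => mul_mem_iff_of_relIndex_two hPQ ha hb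
  have hsqR : ∀ a ∈ P, a * a ∈ R := fun a ha => (hR2 a ha a ha).mpr Iff.rfl
  have hsqQ : ∀ a ∈ P, a * a ∈ Q := fun a ha => (hQ2 a ha a ha).mpr Iff.rfl
  -- the subgroup `A` generated by the squares of `Q`
  obtain ⟨A, hAdef⟩ : ∃ A : Subgroup G, A = Subgroup.closure {g : G | ∃ q ∈ Q, g = q * q} :=
    ⟨_, rfl⟩
  have hAQ : A ≤ Q := by
    rw [hAdef, Subgroup.closure_le]
    rintro g ⟨q, hq, rfl⟩
    exact Q.mul_mem hq hq
  have hAR : A ≤ R := by
    rw [hAdef, Subgroup.closure_le]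
    rintro g ⟨q, hq, rfl⟩
    exact hsqR q (hQP hq)
  have hAP : A ≤ P := hAQ.trans hQP
  have hAconj : ∀ h ∈ H, ∀ a ∈ A, h * a * h⁻¹ ∈ A := by
    intro h hh a ha
    rw [hAdef] at ha ⊢
    induction ha using Subgroup.closure_induction with
    | mem g hg =>
      obtain ⟨q, hq, rfl⟩ := hg
      exact Subgroup.subset_closure ⟨h * q * h⁻¹, hQn h hh q hq, by group⟩
    | one => simp
    | mul a b _ _ iha ihb =>
      have e : h * (a * b) * h⁻¹ = (h * a * h⁻¹) * (h * b * h⁻¹) := by group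
      rw [e]
      exact Subgroup.mul_mem _ iha ihb
    | inv a _ iha =>
      have e : h * a⁻¹ * h⁻¹ = (h * a * h⁻¹)⁻¹ := by group
      rw [e]
      exact Subgroup.inv_mem _ iha
  have hHA : H ≤ Subgroup.normalizer (A : Set G) := le_normalizer_of_conj_mem hAconj
  have hA1 : A ≠ ⊥ := by
    intro hbot
    have h1 : q₁ * q₁ ∈ A := by
      rw [hAdef]
      exact Subgroup.subset_closure ⟨q₁, hq₁Q, rfl⟩
    rw [hbot, Subgroup.mem_bot] at h1
    exact hq₁ h1
  -- its conjugate `B`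
  obtain ⟨B, hBdef⟩ : ∃ B : Subgroup G, B = MulAut.conj y • A := ⟨_, rfl⟩
  have hmemB : ∀ g, g ∈ B ↔ y⁻¹ * g * y ∈ A := fun g => by
    rw [hBdef]
    exact mem_conjSmul
  have hBcard : Nat.card ↥B = Nat.card ↥A := by
    rw [hBdef]
    exact card_conjSmul y A
  have hBR : B ≤ R := fun g hg => (hmemR g).mpr (hAQ ((hmemB g).mp hg))
  have hyA : ∀ a ∈ A, y * a * y⁻¹ ∈ Q := by
    intro a ha
    rw [hAdef] at ha
    induction ha using Subgroup.closure_induction with
    | mem g hg =>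
      obtain ⟨q, hq, rfl⟩ := hg
      have hr : y * q * y⁻¹ ∈ R := (hmemR _).mpr (by
        have e : y⁻¹ * (y * q * y⁻¹) * y = q := by group
        rw [e]
        exact hq)
      have e : y * (q * q) * y⁻¹ = (y * q * y⁻¹) * (y * q * y⁻¹) := by group
      rw [e]
      exact hsqQ _ (hRP hr)
    | one => simp
    | mul a b _ _ iha ihb =>
      have e : y * (a * b) * y⁻¹ = (y * a * y⁻¹) * (y * b * y⁻¹) := by group
      rw [e]
      exact Q.mul_mem iha ihb
    | inv a _ iha =>
      have e : y * a⁻¹ * y⁻¹ = (y * a * y⁻¹)⁻¹ := by group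
      rw [e]
      exact Q.inv_mem iha
  have hBQ : B ≤ Q := by
    intro g hg
    have h1 := hyA _ ((hmemB g).mp hg)
    have e : y * (y⁻¹ * g * y) * y⁻¹ = g := by group
    rwa [e] at h1
  have hHB : ¬ H ≤ Subgroup.normalizer (B : Set G) := by
    intro h
    apply hA1
    apply hNC A hAP hHA
    rw [← hBdef]
    exact h
  have hBA : B ≠ A := by
    intro hEq
    apply hHB
    rw [hEq]
    exact hHA
  -- `D = Q ∩ R`
  obtain ⟨D, hDdef⟩ : ∃ D : Subgroup G, D = Q ⊓ R := ⟨_, rfl⟩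
  have hmemD : ∀ g, g ∈ D ↔ g ∈ Q ∧ g ∈ R := fun g => by
    rw [hDdef]
    exact Subgroup.mem_inf
  have hDQ : D ≤ Q := fun g hg => ((hmemD g).mp hg).1
  have hAD : A ≤ D := fun g hg => (hmemD g).mpr ⟨hAQ hg, hAR hg⟩
  have hBD : B ≤ D := fun g hg => (hmemD g).mpr ⟨hBQ hg, hBR hg⟩
  -- cardinalities
  have hcQ : Nat.card ↥Q * 2 = Nat.card ↥P := by
    have h := card_mul_relIndex hQP
    rwa [hPQ] at h
  have hq₂ : ∃ q₂ ∈ Q, q₂ ∉ R := by
    by_contra hcon
    push Not at hcon
    have hQR : Q = R := Subgroup.eq_of_le_of_card_ge hcon (le_of_eq hRcard)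
    exact hτQ (hQR ▸ hτR)
  have hDidx : D.relIndex Q = 2 := by
    obtain ⟨q₂, hq₂Q, hq₂R⟩ := hq₂
    show (D.subgroupOf Q).index = 2
    rw [Subgroup.index_eq_two_iff]
    refine ⟨⟨q₂, hq₂Q⟩, fun b => ?_⟩
    have hb := hR2 _ (hQP b.2) _ (hQP hq₂Q)
    by_cases hbR : (b : G) ∈ R
    · right
      refine ⟨Subgroup.mem_subgroupOf.mpr ((hmemD _).mpr ⟨b.2, hbR⟩), fun h => ?_⟩
      have h1 := ((hmemD _).mp (Subgroup.mem_subgroupOf.mp h)).2
      exact hq₂R ((hb.mp h1).mp hbR)
    · left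
      refine ⟨Subgroup.mem_subgroupOf.mpr ((hmemD _).mpr ⟨Q.mul_mem b.2 hq₂Q,
        hb.mpr ⟨fun h => absurd h hbR, fun h => absurd h hq₂R⟩⟩), fun h => ?_⟩
      exact hbR ((hmemD _).mp (Subgroup.mem_subgroupOf.mp h)).2
  have hcD : Nat.card ↥D * 2 = Nat.card ↥Q := by
    have h := card_mul_relIndex hDQ
    rwa [hDidx] at h
  have hD4 : Nat.card ↥D ≤ 4 := by
    have h16 : (2 : ℕ) ^ t ≤ 2 ^ 4 := Nat.pow_le_pow_right (by norm_num) ht
    have h16' : Nat.card ↥P ≤ 16 := by
      rw [hcard]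
      exact h16
    omega
  have hA2 : 2 ≤ Nat.card ↥A := by
    have h1 : Nat.card ↥A ≠ 1 := fun h => hA1 (Subgroup.card_eq_one.mp h)
    have h0 : 0 < Nat.card ↥A := Nat.card_pos
    omega
  have hAneD : Nat.card ↥A ≠ Nat.card ↥D := by
    intro h
    have hAD' : A = D := Subgroup.eq_of_le_of_card_ge hAD (le_of_eq h.symm)
    apply hBA
    have hBA' : B ≤ A := by
      rw [hAD']
      exact hBD
    exact Subgroup.eq_of_le_of_card_ge hBA' (le_of_eq hBcard.symm)
  have hDpos : 0 < Nat.card ↥D := Nat.card_pos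
  obtain ⟨m, hm⟩ := Subgroup.card_dvd_of_le hAD
  have hm0 : m ≠ 0 := by
    rintro rfl
    rw [mul_zero] at hm
    omega
  have hm1 : m ≠ 1 := by
    rintro rfl
    rw [mul_one] at hm
    exact hAneD hm.symm
  have hm2 : 2 ≤ m := by omega
  have h1 : Nat.card ↥A * 2 ≤ Nat.card ↥A * m := Nat.mul_le_mul_left _ hm2
  have hAcard : Nat.card ↥A = 2 := by omega
  have h2 : 2 * 2 ≤ Nat.card ↥A * m := by
    rw [hAcard]
    exact Nat.mul_le_mul_left _ hm2
  have hDcard : Nat.card ↥D = 4 := by omega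
  have hADidx : A.relIndex D = 2 := by
    have h := card_mul_relIndex hAD
    rw [hAcard, hDcard] at h
    omega
  -- the elements of `A`
  obtain ⟨a, haA, ha1⟩ : ∃ a ∈ A, a ≠ 1 := by
    by_contra hcon
    push Not at hcon
    exact hA1 ((Subgroup.eq_bot_iff_forall A).mpr hcon)
  have hAel : ∀ g ∈ A, g = 1 ∨ g = a := by
    intro g hg
    by_contra hcon
    push Not at hcon
    obtain ⟨w, -, huniq⟩ := (Nat.card_eq_two_iff' (1 : ↥A)).mp hAcard
    have e1 : (⟨g, hg⟩ : ↥A) = w := huniq _ (fun h => hcon.1 (congrArg Subtype.val h))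
    have e2 : (⟨a, haA⟩ : ↥A) = w := huniq _ (fun h => ha1 (congrArg Subtype.val h))
    exact hcon.2 (congrArg Subtype.val (e1.trans e2.symm))
  have haa : a * a = 1 := by
    rcases hAel _ (A.mul_mem haA haA) with h | h
    · exact h
    · exfalso
      apply ha1
      have h' : a * a = a * 1 := by
        rw [mul_one]
        exact h
      exact mul_left_cancel h'
  have haP : ∀ p ∈ P, p * a = a * p := by
    intro p hp
    rcases hAel _ (hAconj p (hPH hp) a haA) with h | h
    · exfalso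
      apply ha1
      have e : a = p⁻¹ * (p * a * p⁻¹) * p := by group
      rw [e, h]
      group
    · exact mul_inv_eq_iff_eq_mul.mp h
  -- the generator `b` of `B`
  obtain ⟨b, hbdef⟩ : ∃ b : G, b = y * a * y⁻¹ := ⟨_, rfl⟩
  have hyb : y⁻¹ * b * y = a := by
    rw [hbdef]
    group
  have hbB : b ∈ B := (hmemB b).mpr (by
    rw [hyb]
    exact haA)
  have hb1 : b ≠ 1 := by
    intro h
    apply ha1
    rw [← hyb, h]
    group
  have hbb : b * b = 1 := by
    rw [hbdef]
    have e : y * a * y⁻¹ * (y * a * y⁻¹) = y * (a * a) * y⁻¹ := by group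
    rw [e, haa]
    group
  have hbP : ∀ p ∈ P, p * b = b * p := by
    intro p hp
    have h1 := haP _ ((hmemP p).mp hp)
    rw [hbdef]
    calc p * (y * a * y⁻¹) = y * ((y⁻¹ * p * y) * a) * y⁻¹ := by group
      _ = y * (a * (y⁻¹ * p * y)) * y⁻¹ := by rw [h1]
      _ = y * a * y⁻¹ * p := by group
  have hbA : b ∉ A := by
    intro h
    rcases hAel b h with h' | h'
    · exact hb1 h'
    · apply hBA
      ext g
      rw [hmemB]
      constructor
      · intro hg
        rcases hAel _ hg with h1 | h1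
        · have hg1 : g = 1 := by
            have e : g = y * (y⁻¹ * g * y) * y⁻¹ := by group
            rw [e, h1]
            group
          rw [hg1]
          exact A.one_mem
        · have hga : g = a := by
            have e : g = y * (y⁻¹ * g * y) * y⁻¹ := by group
            rw [e, h1, ← hbdef, h']
          rw [hga]
          exact haA
      · intro hg
        rcases hAel _ hg with h1 | h1
        · rw [h1]
          simp
        · rw [h1, ← h', hyb]
          exact haA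
  -- the elements of `D` are central in `P` and of order at most two
  have hDel : ∀ d ∈ D, (∀ p ∈ P, p * d = d * p) ∧ d * d = 1 := by
    intro d hd
    by_cases hdA : d ∈ A
    · rcases hAel d hdA with h | h
      · rw [h]
        exact ⟨fun p _ => by simp, by simp⟩
      · rw [h]
        exact ⟨haP, haa⟩
    · have h1 : d * b ∈ A := (mul_mem_iff_of_relIndex_two hADidx hd (hBD hbB)).mpr
        ⟨fun h => absurd h hdA, fun h => absurd h hbA⟩
      have hdeq : d = (d * b) * b := by rw [mul_assoc, hbb, mul_one]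
      rcases hAel _ h1 with h | h
      · have hd' : d = b := by rw [hdeq, h, one_mul]
        rw [hd']
        exact ⟨hbP, hbb⟩
      · have hd' : d = a * b := by rw [hdeq, h]
        rw [hd']
        refine ⟨fun p hp => ?_, ?_⟩
        · have c1 : Commute p a := haP p hp
          have c2 : Commute p b := hbP p hp
          exact (c1.mul_right c2).eq
        · have hab : a * b = b * a := hbP a (hAP haA)
          calc a * b * (a * b) = a * (b * a) * b := by group
            _ = a * (a * b) * b := by rw [← hab]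
            _ = (a * a) * (b * b) := by group
            _ = 1 := by rw [haa, hbb, one_mul]
  -- `D` is the set of elements of order at most two of `Q`, and of `R`
  have hγ : ∀ q ∈ Q, q * q = 1 → q ∈ R := by
    intro q hq hqq
    by_contra hqR
    apply hq₁
    have hall : ∀ q' ∈ Q, q' * q' = 1 := by
      intro q' hq'
      by_cases hq'R : q' ∈ R
      · exact (hDel q' ((hmemD q').mpr ⟨hq', hq'R⟩)).2
      · have hdR : q * q' ∈ R := (hR2 q (hQP hq) q' (hQP hq')).mpr
          ⟨fun h => absurd h hqR, fun h => absurd h hq'R⟩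
        have hdD : q * q' ∈ D := (hmemD _).mpr ⟨Q.mul_mem hq hq', hdR⟩
        obtain ⟨hcen, hsq⟩ := hDel _ hdD
        exact sq_of_central hqq (hcen q (hQP hq)) hsq
    exact hall q₁ hq₁Q
  have hγ' : ∀ r ∈ R, r * r = 1 → r ∈ Q := by
    intro r hr hrr
    by_contra hrQ
    apply hq₁
    have hall : ∀ r' ∈ R, r' * r' = 1 := by
      intro r' hr'
      by_cases hr'Q : r' ∈ Q
      · exact (hDel r' ((hmemD r').mpr ⟨hr'Q, hr'⟩)).2
      · have hdQ : r * r' ∈ Q := (hQ2 r (hRP hr) r' (hRP hr')).mpr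
          ⟨fun h => absurd h hrQ, fun h => absurd h hr'Q⟩
        have hdD : r * r' ∈ D := (hmemD _).mpr ⟨hdQ, R.mul_mem hr hr'⟩
        obtain ⟨hcen, hsq⟩ := hDel _ hdD
        exact sq_of_central hrr (hcen r (hRP hr)) hsq
    have h1 : y * q₁ * y⁻¹ ∈ R := (hmemR _).mpr (by
      have e : y⁻¹ * (y * q₁ * y⁻¹) * y = q₁ := by group
      rw [e]
      exact hq₁Q)
    have h2 := hall _ h1
    have e : y * q₁ * y⁻¹ * (y * q₁ * y⁻¹) = y * (q₁ * q₁) * y⁻¹ := by group
    rw [e] at h2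
    have e2 : q₁ * q₁ = y⁻¹ * (y * (q₁ * q₁) * y⁻¹) * y := by group
    rw [e2, h2]
    group
  -- `D` is normalized by `H` and by `y`
  have hHD : ∀ h ∈ H, ∀ d ∈ D, h * d * h⁻¹ ∈ D := by
    intro h hh d hd
    have h1 : h * d * h⁻¹ ∈ Q := hQn h hh d (hDQ hd)
    have h2 : h * d * h⁻¹ * (h * d * h⁻¹) = 1 := by
      have e : h * d * h⁻¹ * (h * d * h⁻¹) = h * (d * d) * h⁻¹ := by group
      rw [e, (hDel d hd).2]
      group
    exact (hmemD _).mpr ⟨h1, hγ _ h1 h2⟩
  have hyD : MulAut.conj y • D = D := by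
    have hle : MulAut.conj y • D ≤ D := by
      intro g hg
      have hd : y⁻¹ * g * y ∈ D := mem_conjSmul.mp hg
      have hgR : g ∈ R := (hmemR g).mpr (hDQ hd)
      have hgg : g * g = 1 := by
        have e : g * g = y * ((y⁻¹ * g * y) * (y⁻¹ * g * y)) * y⁻¹ := by group
        rw [e, (hDel _ hd).2]
        group
      exact (hmemD g).mpr ⟨hγ' g hgR hgg, hgR⟩
    exact Subgroup.eq_of_le_of_card_ge hle (le_of_eq (card_conjSmul y D).symm)
  have hDbot : D = ⊥ := by
    apply hNC D (hDQ.trans hQP) (le_normalizer_of_conj_mem hHD)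
    rw [hyD]
    exact le_normalizer_of_conj_mem hHD
  have haD : a ∈ D := hAD haA
  rw [hDbot, Subgroup.mem_bot] at haD
  exact ha1 haD

end Cfsg.Agent.Lib.Helper21.DSims
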